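import Mathlib
import Cfsg.Prelude.Def_BaumannBlocks
import Cfsg.Agent.Lib.Helper11.ThompsonSylow
import Cfsg.Agent.Lib.Helper47.Large

/-!
Baumann subgroups and `B(T)`-blocks: elementary facts.  The Baumann subgroup `B(T)` of a Sylow
`p`-subgroup `T` is normalized by every Sylow `p`-subgroup containing it; a `p`-subgroup normalized
by `B(T)` and by a subgroup `E = O^p(E) = [E, B(T)]` normalizes `E`.  (helper85)
-/

set_option autoImplicit false

namespace Cfsg.Agent.Lib.Helper85.BB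

open Cfsg
open scoped commutatorElement

universe u

variable {G : Type u} [Group G]

theorem mem_normalizer_of_conj_mem' {H : Subgroup G} {g : G} (h1 : ∀ x ∈ H, g * x * g⁻¹ ∈ H)
    (h2 : ∀ x ∈ H, g⁻¹ * x * g ∈ H) : g ∈ Subgroup.normalizer (H : Set G) := by
  rw [Subgroup.mem_normalizer_iff]
  intro x
  constructor
  · exact h1 x
  · intro hx
    have h3 := h2 _ hx
    have h4 : g⁻¹ * (g * x * g⁻¹) * g = x := by group
    rwa [h4] at h3

/-- `N(A) ∩ N(B) ≤ N(A ∩ B)`, elementwise. -/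
theorem mem_normalizer_inf {A B : Subgroup G} {c : G} (hA : c ∈ Subgroup.normalizer (A : Set G))
    (hB : c ∈ Subgroup.normalizer (B : Set G)) :
    c ∈ Subgroup.normalizer ((A ⊓ B : Subgroup G) : Set G) := by
  rw [Subgroup.mem_normalizer_iff]
  intro x
  rw [Subgroup.mem_inf, Subgroup.mem_inf, ← Subgroup.mem_normalizer_iff.mp hA x,
    ← Subgroup.mem_normalizer_iff.mp hB x]

/-- If `[K, J] = K` then `J` normalizes `K`. -/
theorem conj_mem_of_commutator_eq {K J : Subgroup G} (hKJ : ⁅K, J⁆ = K) :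
    ∀ z ∈ J, ∀ w ∈ K, z * w * z⁻¹ ∈ K := by
  intro z hz
  have hle : ⁅K, J⁆ ≤ K.comap (MulAut.conj z).toMonoidHom := by
    rw [Subgroup.commutator_le]
    intro k hk j hj
    show z * ⁅k, j⁆ * z⁻¹ ∈ K
    have h1 : ⁅k, z⁆ ∈ K := by
      rw [← hKJ]; exact Subgroup.commutator_mem_commutator hk hz
    have h2 : ⁅k, z * j⁆ ∈ K := by
      rw [← hKJ]; exact Subgroup.commutator_mem_commutator hk (J.mul_mem hz hj)
    have h3 : z * ⁅k, j⁆ * z⁻¹ = ⁅k, z⁆⁻¹ * ⁅k, z * j⁆ := by
      simp only [commutatorElement_def]; group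
    rw [h3]
    exact K.mul_mem (K.inv_mem h1) h2
  intro w hw
  have : w ∈ ⁅K, J⁆ := by rw [hKJ]; exact hw
  exact hle this

/-- If the `p`-group `J` normalizes `K`, the elements of `⟨K, J⟩` of order prime to `p` lie in
`K`. -/
theorem coprime_mem_of_mem_sup {p : ℕ} {K J : Subgroup G} (hJ2 : IsPGroup p J)
    (hJK : ∀ z ∈ J, ∀ w ∈ K, z * w * z⁻¹ ∈ K) :
    ∀ h ∈ K ⊔ J, (orderOf h).Coprime p → h ∈ K := by
  have hsup : ∀ h ∈ K ⊔ J, ∃ j ∈ J, h * j ∈ K := by
    intro h hh
    rw [sup_eq_iSup] at hh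
    refine Subgroup.iSup_induction (C := fun h => ∃ j ∈ J, h * j ∈ K) _ hh ?_ ?_ ?_
    · intro b x hx
      cases b
      · exact ⟨x⁻¹, J.inv_mem (by simpa using hx), by simp⟩
      · exact ⟨1, J.one_mem, by simpa using hx⟩
    · exact ⟨1, J.one_mem, by simp⟩
    · rintro x y ⟨j₁, hj₁, hx⟩ ⟨j₂, hj₂, hy⟩
      refine ⟨j₂ * j₁, J.mul_mem hj₂ hj₁, ?_⟩
      have h1 : j₁⁻¹ * (y * j₂) * j₁⁻¹⁻¹ ∈ K := hJK _ (J.inv_mem hj₁) _ hy
      have h2 : x * y * (j₂ * j₁) = (x * j₁) * (j₁⁻¹ * (y * j₂) * j₁⁻¹⁻¹) := by group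
      rw [h2]
      exact K.mul_mem hx h1
  intro h hh hodd
  obtain ⟨j, hj, hk⟩ := hsup h hh
  have hpow : ∀ n : ℕ, ∃ j' ∈ J, h ^ n * j' ∈ K ∧ j' = j ^ n := by
    intro n
    induction n with
    | zero => exact ⟨1, J.one_mem, by simp, by simp⟩
    | succ n ih =>
      obtain ⟨j', hj', hmem, rfl⟩ := ih
      refine ⟨j ^ (n + 1), J.pow_mem hj _, ?_, rfl⟩
      have h1 : (j ^ n)⁻¹ * (h * j) * (j ^ n)⁻¹⁻¹ ∈ K := hJK _ (J.inv_mem (J.pow_mem hj n)) _ hk
      have h2 : h ^ (n + 1) * j ^ (n + 1) = (h ^ n * j ^ n) * ((j ^ n)⁻¹ * (h * j) * (j ^ n)⁻¹⁻¹) := by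
        rw [pow_succ, pow_succ]; group
      rw [h2]
      exact K.mul_mem hmem h1
  obtain ⟨a, ha⟩ := hJ2 ⟨j, hj⟩
  have hja : j ^ (p ^ a) = 1 := congrArg Subtype.val ha
  obtain ⟨j', -, hmem, rfl⟩ := hpow (p ^ a)
  rw [hja, mul_one] at hmem
  have hcop : (p ^ a).Coprime (orderOf h) := Nat.Coprime.pow_left a hodd.symm
  obtain ⟨m, hm⟩ := exists_pow_eq_self_of_coprime hcop
  rw [← hm]
  exact K.pow_mem hmem m

/-- `N(H)` normalizes `Ω₁`-type subgroups `⟨x ∈ H | x^p = 1⟩`. -/
theorem normalizer_le_normalizer_omegaOne (p : ℕ) (H : Subgroup G) :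
    Subgroup.normalizer (H : Set G) ≤ Subgroup.normalizer (omegaOne p H : Set G) := by
  have key : ∀ g : G, g ∈ Subgroup.normalizer (H : Set G) →
      ∀ x ∈ omegaOne p H, g * x * g⁻¹ ∈ omegaOne p H := by
    intro g hg x hx
    unfold omegaOne at hx ⊢
    induction hx using Subgroup.closure_induction with
    | mem y hy =>
      apply Subgroup.subset_closure
      refine ⟨(Subgroup.mem_normalizer_iff.mp hg y).mp hy.1, ?_⟩
      rw [conj_pow, hy.2]; group
    | one => simp
    | mul a b _ _ ha hb =>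
      have h10 : g * (a * b) * g⁻¹ = (g * a * g⁻¹) * (g * b * g⁻¹) := by group
      rw [h10]; exact Subgroup.mul_mem _ ha hb
    | inv a _ ha =>
      have h11 : g * a⁻¹ * g⁻¹ = (g * a * g⁻¹)⁻¹ := by group
      rw [h11]; exact Subgroup.inv_mem _ ha
  intro g hg
  apply mem_normalizer_of_conj_mem' (key g hg)
  intro x hx
  have := key g⁻¹ (Subgroup.inv_mem _ hg) x hx
  simpa using this

/-- `N(J(T))` normalizes `C_G(Ω₁(Z(J(T))))`. -/
theorem normalizer_thompson_le (p : ℕ) (T : Subgroup G) :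
    Subgroup.normalizer (thompsonSubgroupOf p T : Set G) ≤
      Subgroup.normalizer
        ((Subgroup.centralizer (omegaOne p (centerThompsonOf p T) : Set G) : Subgroup G) : Set G) := by
  intro g hg
  have h1 : g ∈ Subgroup.normalizer (centerThompsonOf p T : Set G) := by
    unfold centerThompsonOf
    exact mem_normalizer_inf hg
      (Cfsg.Agent.Lib.Helper47.normalizer_le_normalizer_centralizer _ hg)
  exact Cfsg.Agent.Lib.Helper47.normalizer_le_normalizer_centralizer _
    (normalizer_le_normalizer_omegaOne p _ h1)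

/-- `J(T) ≤ B(T)`. -/
theorem thompsonSubgroupOf_le_baumannSubgroupOf (p : ℕ) (T : Subgroup G) :
    thompsonSubgroupOf p T ≤ baumannSubgroupOf p T := by
  unfold baumannSubgroupOf
  refine le_inf (Cfsg.Agent.Lib.Helper11.thompsonSubgroupOf_le p T) ?_
  intro x hx
  rw [Subgroup.mem_centralizer_iff]
  intro y hy
  have hy' : y ∈ omegaOne p (centerThompsonOf p T) := hy
  have h1 : omegaOne p (centerThompsonOf p T) ≤ centerThompsonOf p T := by
    unfold omegaOne
    rw [Subgroup.closure_le]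
    intro z hz
    exact hz.1
  have h2 := h1 hy'
  unfold centerThompsonOf at h2
  exact (Subgroup.mem_centralizer_iff.mp (Subgroup.mem_inf.mp h2).2 x hx).symm

theorem baumannSubgroupOf_le (p : ℕ) (T : Subgroup G) : baumannSubgroupOf p T ≤ T := by
  unfold baumannSubgroupOf
  exact inf_le_left

/-- A Sylow `p`-subgroup `T'` containing `B(T)` (`T` Sylow) normalizes `B(T)`
(indeed `B(T') = B(T)`). -/
theorem sylow_le_normalizer_baumannSubgroupOf [Finite G] {p : ℕ} [Fact p.Prime]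
    (T T' : Sylow p G) (hB : baumannSubgroupOf p (T : Subgroup G) ≤ (T' : Subgroup G)) :
    (T' : Subgroup G) ≤ Subgroup.normalizer (baumannSubgroupOf p (T : Subgroup G) : Set G) := by
  have hJB := thompsonSubgroupOf_le_baumannSubgroupOf p (T : Subgroup G)
  have hJ : thompsonSubgroupOf p (T' : Subgroup G) = thompsonSubgroupOf p (T : Subgroup G) :=
    Cfsg.Agent.Lib.Helper11.thompsonSubgroupOf_eq_of_le_sylow T T' (hJB.trans hB)
  obtain ⟨g, hg⟩ := MulAction.exists_smul_eq G T T'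
  have hT' : (T' : Subgroup G) = (T : Subgroup G).map (MulAut.conj g).toMonoidHom := by
    rw [← hg, Cfsg.Agent.Lib.Helper11.sylow_smul_coe]
  have hgJ : g ∈ Subgroup.normalizer (thompsonSubgroupOf p (T : Subgroup G) : Set G) := by
    apply Cfsg.Agent.Lib.Helper11.mem_normalizer_of_map_conj_eq
    rw [← Cfsg.Agent.Lib.Helper11.thompsonSubgroupOf_smul, hg, hJ]
  have hgC := normalizer_thompson_le p (T : Subgroup G) hgJ
  have hmap : (baumannSubgroupOf p (T : Subgroup G)).map (MulAut.conj g).toMonoidHom =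
      (T' : Subgroup G) ⊓
        Subgroup.centralizer (omegaOne p (centerThompsonOf p (T : Subgroup G)) : Set G) := by
    unfold baumannSubgroupOf
    rw [Subgroup.map_inf _ _ _ (MulAut.conj g).injective, ← hT',
      Cfsg.Agent.Lib.Helper11.map_conj_eq_of_mem_normalizer hgC]
  have hle : baumannSubgroupOf p (T : Subgroup G) ≤ (T' : Subgroup G) ⊓
      Subgroup.centralizer (omegaOne p (centerThompsonOf p (T : Subgroup G)) : Set G) := by
    refine le_inf hB ?_
    unfold baumannSubgroupOf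
    exact inf_le_right
  have heq : baumannSubgroupOf p (T : Subgroup G) = (T' : Subgroup G) ⊓
      Subgroup.centralizer (omegaOne p (centerThompsonOf p (T : Subgroup G)) : Set G) := by
    apply Subgroup.eq_of_le_of_card_ge hle
    rw [← hmap, Subgroup.card_map_of_injective (MulAut.conj g).injective]
  rw [heq]
  intro t ht
  have h1 : t ∈ Subgroup.normalizer ((T' : Subgroup G) : Set G) := Subgroup.le_normalizer ht
  have h2 : t ∈ Subgroup.normalizer (thompsonSubgroupOf p (T : Subgroup G) : Set G) := by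
    rw [← hJ]
    exact Cfsg.Agent.Lib.Helper11.normalizer_le_normalizer_thompsonSubgroupOf p _ h1
  exact mem_normalizer_inf h1 (normalizer_thompson_le p (T : Subgroup G) h2)

/-- A `p`-subgroup normalized by `B(T)` normalizes `B(T)`. -/
theorem le_normalizer_baumannSubgroupOf [Finite G] {p : ℕ} [Fact p.Prime] (T : Sylow p G)
    {Q : Subgroup G} (hQ : IsPGroup p Q)
    (hBQ : baumannSubgroupOf p (T : Subgroup G) ≤ Subgroup.normalizer (Q : Set G)) :
    Q ≤ Subgroup.normalizer (baumannSubgroupOf p (T : Subgroup G) : Set G) := by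
  have hBp : IsPGroup p (baumannSubgroupOf p (T : Subgroup G)) :=
    T.isPGroup'.to_le (baumannSubgroupOf_le p _)
  have hBQp : IsPGroup p (baumannSubgroupOf p (T : Subgroup G) ⊔ Q : Subgroup G) :=
    IsPGroup.to_sup_of_normal_right' hBp hQ hBQ
  obtain ⟨T', hT'⟩ := hBQp.exists_le_sylow
  exact (le_sup_right.trans hT').trans
    (sylow_le_normalizer_baumannSubgroupOf T T' (le_sup_left.trans hT'))

/-- The S2941-type lemma: if `E = O^p(E) = [E, B]` for a `p`-group `B`, and `Q` is normalized by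
`E` and normalizes `B`, then `Q` normalizes `E`. -/
theorem le_normalizer_of_residual {p : ℕ} {E B Q : Subgroup G} (hres : pResidualOf p E = E)
    (hEB : ⁅E, B⁆ = E) (hB : IsPGroup p B) (hEQ : E ≤ Subgroup.normalizer (Q : Set G))
    (hQB : Q ≤ Subgroup.normalizer (B : Set G)) : Q ≤ Subgroup.normalizer (E : Set G) := by
  have hBE := conj_mem_of_commutator_eq hEB
  have hcop := coprime_mem_of_mem_sup hB hBE
  have hQEB : ∀ q ∈ Q, ∀ w ∈ E, q * w * q⁻¹ ∈ E ⊔ B := by
    intro q hq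
    have hle : ⁅E, B⁆ ≤ (E ⊔ B).comap (MulAut.conj q).toMonoidHom := by
      rw [Subgroup.commutator_le]
      intro k hk j hj
      show q * ⁅k, j⁆ * q⁻¹ ∈ E ⊔ B
      have hkN : k ∈ Subgroup.normalizer (Q : Set G) := hEQ hk
      have hq' : k⁻¹ * q * k ∈ Q := (Subgroup.mem_normalizer_iff''.mp hkN q).mp hq
      have hq'N : k⁻¹ * q * k ∈ Subgroup.normalizer (B : Set G) := hQB hq'
      have hj' : (k⁻¹ * q * k) * j * (k⁻¹ * q * k)⁻¹ ∈ B :=
        (Subgroup.mem_normalizer_iff.mp hq'N j).mp hj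
      have hj'' : q * j⁻¹ * q⁻¹ ∈ B :=
        (Subgroup.mem_normalizer_iff.mp (hQB hq) j⁻¹).mp (B.inv_mem hj)
      have h3 : q * ⁅k, j⁆ * q⁻¹ =
          k * ((k⁻¹ * q * k) * j * (k⁻¹ * q * k)⁻¹) * k⁻¹ * (q * j⁻¹ * q⁻¹) := by
        simp only [commutatorElement_def]; group
      rw [h3]
      exact Subgroup.mul_mem _ (Subgroup.mul_mem _ (Subgroup.mul_mem _ (Subgroup.mem_sup_left hk)
        (Subgroup.mem_sup_right hj')) (Subgroup.mem_sup_left (E.inv_mem hk)))
        (Subgroup.mem_sup_right hj'')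
    intro w hw
    have : w ∈ ⁅E, B⁆ := by rw [hEB]; exact hw
    exact hle this
  have hQE : ∀ q ∈ Q, ∀ w ∈ E, q * w * q⁻¹ ∈ E := by
    intro q hq w hw
    have key : ∀ y : ↥E, y ∈ Subgroup.closure {g : ↥E | (orderOf g).Coprime p} →
        q * (y : G) * q⁻¹ ∈ E := by
      intro y hy
      refine Subgroup.closure_induction (p := fun (y : ↥E) _ => q * (y : G) * q⁻¹ ∈ E) ?_ ?_ ?_ ?_ hy
      · intro x hx
        refine hcop _ (hQEB q hq x x.2) ?_
        have h1 : orderOf (q * (x : G) * q⁻¹) = orderOf (x : G) := by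
          have := orderOf_injective (MulAut.conj q).toMonoidHom (MulAut.conj q).injective (x : G)
          simpa using this
        have hx' : (orderOf x).Coprime p := hx
        rw [h1, Subgroup.orderOf_coe]
        exact hx'
      · simp
      · intro a b _ _ iha ihb
        have e : q * ((a * b : ↥E) : G) * q⁻¹ = (q * (a : G) * q⁻¹) * (q * (b : G) * q⁻¹) := by
          rw [Subgroup.coe_mul]; group
        rw [e]
        exact E.mul_mem iha ihb
      · intro a _ iha
        have e : q * ((a⁻¹ : ↥E) : G) * q⁻¹ = (q * (a : G) * q⁻¹)⁻¹ := by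
          rw [Subgroup.coe_inv]; group
        rw [e]
        exact E.inv_mem iha
    have hw' : w ∈ pResidualOf p E := by rw [hres]; exact hw
    unfold pResidualOf at hw'
    obtain ⟨y, hy, rfl⟩ := hw'
    exact key y hy
  intro q hq
  apply mem_normalizer_of_conj_mem' (hQE q hq)
  intro x hx
  have := hQE q⁻¹ (Q.inv_mem hq) x hx
  simpa using this

/-- A `p`-subgroup normalized by `B(T)` and by a `B(T)`-block `E` normalizes `E`. -/
theorem block_le_normalizer [Finite G] {p : ℕ} [Fact p.Prime] (T : Sylow p G) {E Q : Subgroup G}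
    (hE : IsBaumannBlock p (T : Subgroup G) E) (hQ : IsPGroup p Q)
    (hBQ : baumannSubgroupOf p (T : Subgroup G) ≤ Subgroup.normalizer (Q : Set G))
    (hEQ : E ≤ Subgroup.normalizer (Q : Set G)) : Q ≤ Subgroup.normalizer (E : Set G) :=
  le_normalizer_of_residual hE.1 hE.2.1 (T.isPGroup'.to_le (baumannSubgroupOf_le p _)) hEQ
    (le_normalizer_baumannSubgroupOf T hQ hBQ)

end Cfsg.Agent.Lib.Helper85.BB
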