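import Mathlib

/-!
Irreducibility (over the prime field) of the natural module of the derived group of `SL₂(F)` and of
the even-weight permutation module of the alternating group of odd degree, in the elementary form
needed for Baumann blocks.  (helper85)
-/

set_option autoImplicit false

namespace Cfsg.Agent.Lib.Helper85.BB

open scoped commutatorElement MatrixGroups

universe u

section SL2

variable {F : Type u} [Field F]

/-- Upper unitriangular element. -/
def upU (x : F) : Matrix.SpecialLinearGroup (Fin 2) F :=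
  ⟨!![1, x; 0, 1], by simp [Matrix.det_fin_two]⟩

/-- Lower unitriangular element. -/
def loL (y : F) : Matrix.SpecialLinearGroup (Fin 2) F :=
  ⟨!![1, 0; y, 1], by simp [Matrix.det_fin_two]⟩

/-- Diagonal element. -/
def diD (t : F) (ht : t ≠ 0) : Matrix.SpecialLinearGroup (Fin 2) F :=
  ⟨!![t, 0; 0, t⁻¹], by simp [Matrix.det_fin_two, ht]⟩

theorem vec2_eq (v : Fin 2 → F) : v = ![v 0, v 1] := by
  ext i; fin_cases i <;> rfl

theorem upU_mulVec (x a b : F) :
    (upU x : Matrix (Fin 2) (Fin 2) F).mulVec ![a, b] = ![a + x * b, b] := by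
  ext i; fin_cases i <;> simp [upU, Matrix.mulVec, dotProduct, Fin.sum_univ_two]

theorem loL_mulVec (y a b : F) :
    (loL y : Matrix (Fin 2) (Fin 2) F).mulVec ![a, b] = ![a, b + y * a] := by
  ext i; fin_cases i <;> simp [loL, Matrix.mulVec, dotProduct, Fin.sum_univ_two, add_comm]

theorem diD_mulVec (t : F) (ht : t ≠ 0) (a b : F) :
    (diD t ht : Matrix (Fin 2) (Fin 2) F).mulVec ![a, b] = ![t * a, t⁻¹ * b] := by
  ext i; fin_cases i <;> simp [diD, Matrix.mulVec, dotProduct, Fin.sum_univ_two]

theorem upU_mul_neg (x : F) : upU x * upU (-x) = 1 := by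
  apply Subtype.ext
  show (!![1, x; 0, 1] * !![1, -x; 0, 1] : Matrix (Fin 2) (Fin 2) F) = 1
  rw [Matrix.mul_fin_two, Matrix.one_fin_two]
  simp

theorem loL_mul_neg (y : F) : loL y * loL (-y) = 1 := by
  apply Subtype.ext
  show (!![1, 0; y, 1] * !![1, 0; -y, 1] : Matrix (Fin 2) (Fin 2) F) = 1
  rw [Matrix.mul_fin_two, Matrix.one_fin_two]
  simp

theorem diD_mul_inv (t : F) (ht : t ≠ 0) : diD t ht * diD t⁻¹ (inv_ne_zero ht) = 1 := by
  apply Subtype.ext
  show (!![t, 0; 0, t⁻¹] * !![t⁻¹, 0; 0, t⁻¹⁻¹] : Matrix (Fin 2) (Fin 2) F) = 1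
  rw [Matrix.mul_fin_two, Matrix.one_fin_two]
  simp [ht]

theorem comm_mulVec (A B A' B' : Matrix.SpecialLinearGroup (Fin 2) F) (hA : A * A' = 1)
    (hB : B * B' = 1) (v : Fin 2 → F) :
    ((⁅A, B⁆ : Matrix.SpecialLinearGroup (Fin 2) F) : Matrix (Fin 2) (Fin 2) F).mulVec v =
      (A : Matrix (Fin 2) (Fin 2) F).mulVec ((B : Matrix (Fin 2) (Fin 2) F).mulVec
        ((A' : Matrix (Fin 2) (Fin 2) F).mulVec ((B' : Matrix (Fin 2) (Fin 2) F).mulVec v))) := by
  have h1 : A⁻¹ = A' := inv_eq_of_mul_eq_one_right hA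
  have h2 : B⁻¹ = B' := inv_eq_of_mul_eq_one_right hB
  rw [commutatorElement_def, h1, h2]
  simp only [Matrix.SpecialLinearGroup.coe_mul, Matrix.mulVec_mulVec, Matrix.mul_assoc]

theorem comm_mem (A B : Matrix.SpecialLinearGroup (Fin 2) F) :
    ⁅A, B⁆ ∈ commutator (Matrix.SpecialLinearGroup (Fin 2) F) := by
  rw [commutator_def]
  exact Subgroup.commutator_mem_commutator (Subgroup.mem_top _) (Subgroup.mem_top _)

/-- An additive subgroup of `F²` closed under the shears contains everything as soon as it is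
nonzero. -/
theorem sl2_top_of_shear (M : AddSubgroup (Fin 2 → F))
    (hU : ∀ z a b : F, ![a, b] ∈ M → ![z * b, 0] ∈ M)
    (hL : ∀ z a b : F, ![a, b] ∈ M → ![0, z * a] ∈ M)
    {v : Fin 2 → F} (hv : v ∈ M) (hv0 : v ≠ 0) (w : Fin 2 → F) : w ∈ M := by
  have hv' : ![v 0, v 1] ∈ M := by rw [← vec2_eq v]; exact hv
  have key : (∀ z : F, ![z, 0] ∈ M) ∧ (∀ z : F, ![0, z] ∈ M) := by
    by_cases hb : v 1 = 0
    · have ha : v 0 ≠ 0 := by
        intro ha
        apply hv0
        rw [vec2_eq v, ha, hb]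
        ext i; fin_cases i <;> rfl
      have h1 : ∀ z : F, ![0, z] ∈ M := by
        intro z
        have := hL (z / v 0) _ _ hv'
        rwa [div_mul_cancel₀ _ ha] at this
      refine ⟨fun z => ?_, h1⟩
      have := hU z _ _ (h1 1)
      rwa [mul_one] at this
    · have h1 : ∀ z : F, ![z, 0] ∈ M := by
        intro z
        have := hU (z / v 1) _ _ hv'
        rwa [div_mul_cancel₀ _ hb] at this
      refine ⟨h1, fun z => ?_⟩
      have := hL z _ _ (h1 1)
      rwa [mul_one] at this
  have hw : w = ![w 0, 0] + ![0, w 1] := by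
    ext i; fin_cases i <;> simp
  rw [hw]
  exact M.add_mem (key.1 _) (key.2 _)

/-- The natural module of the derived group of `SL₂(F)` has no proper nonzero invariant additive
subgroup (any field `F`). -/
theorem sl2_natural_irred (M : AddSubgroup (Fin 2 → F))
    (hM : ∀ r ∈ commutator (Matrix.SpecialLinearGroup (Fin 2) F), ∀ v ∈ M,
      (r : Matrix (Fin 2) (Fin 2) F).mulVec v ∈ M)
    {v : Fin 2 → F} (hv : v ∈ M) (hv0 : v ≠ 0) (w : Fin 2 → F) : w ∈ M := by
  by_cases hF : ∃ t : F, t ≠ 0 ∧ t ^ 2 ≠ 1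
  · obtain ⟨t, ht, ht2⟩ := hF
    have hs : t ^ 2 - 1 ≠ 0 := sub_ne_zero.mpr ht2
    have hs' : (t⁻¹) ^ 2 - 1 ≠ 0 := by
      apply sub_ne_zero.mpr
      intro h
      apply ht2
      have h3 : t ^ 2 * (t⁻¹) ^ 2 = 1 := by rw [← mul_pow, mul_inv_cancel₀ ht, one_pow]
      rw [h, mul_one] at h3
      exact h3
    apply sl2_top_of_shear M _ _ hv hv0
    · intro z a b hab
      have h1 := hM _ (comm_mem (diD t ht) (upU (z / (t ^ 2 - 1)))) _ hab
      rw [comm_mulVec _ _ _ _ (diD_mul_inv t ht) (upU_mul_neg _), upU_mulVec, diD_mulVec,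
        upU_mulVec, diD_mulVec] at h1
      have h2 := M.sub_mem h1 hab
      convert h2 using 1
      ext i; fin_cases i
      · simp only [Fin.zero_eta, Fin.isValue, Matrix.cons_val_zero, Pi.sub_apply]
        field_simp
        ring
      · simp [ht]
    · intro z a b hab
      have h1 := hM _ (comm_mem (diD t ht) (loL (z / ((t⁻¹) ^ 2 - 1)))) _ hab
      rw [comm_mulVec _ _ _ _ (diD_mul_inv t ht) (loL_mul_neg _), loL_mulVec, diD_mulVec,
        loL_mulVec, diD_mulVec] at h1
      have h2 := M.sub_mem h1 hab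
      convert h2 using 1
      ext i; fin_cases i
      · simp [ht]
      · simp only [Fin.mk_one, Fin.isValue, Matrix.cons_val_one, Matrix.cons_val_fin_one,
          Pi.sub_apply]
        field_simp
        ring
  · push_neg at hF
    have hall : ∀ t : F, t = 0 ∨ t = 1 ∨ t = -1 := by
      intro t
      by_cases ht : t = 0
      · exact Or.inl ht
      · have h1 := hF t ht
        have h2 : (t - 1) * (t + 1) = 0 := by
          have : (t - 1) * (t + 1) = t ^ 2 - 1 := by ring
          rw [this, h1, sub_self]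
        rcases mul_eq_zero.mp h2 with h | h
        · exact Or.inr (Or.inl (sub_eq_zero.mp h))
        · exact Or.inr (Or.inr (eq_neg_of_add_eq_zero_left h))
    have h5 : (5 : F) ≠ 0 := by
      rcases hall 2 with h | h | h
      · have : (5 : F) = 2 * 2 + 1 := by norm_num
        rw [this, h]; simp
      · exfalso
        have : (1 : F) = 0 := by linear_combination h
        exact one_ne_zero this
      · have : (5 : F) = -1 := by linear_combination 2 * h
        rw [this]; simp
    have hc : ∀ a b : F, ![a, b] ∈ M → ![3 * a - b, a] ∈ M := by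
      intro a b hab
      have h1 := hM _ (comm_mem (upU 1) (loL 1)) _ hab
      rw [comm_mulVec _ _ _ _ (upU_mul_neg 1) (loL_mul_neg 1), loL_mulVec, upU_mulVec,
        loL_mulVec, upU_mulVec] at h1
      convert h1 using 1
      ext i; fin_cases i
      · simp only [Fin.zero_eta, Fin.isValue, Matrix.cons_val_zero]
        ring
      · simp only [Fin.mk_one, Fin.isValue, Matrix.cons_val_one, Matrix.cons_val_fin_one]
        ring
    have hsm : ∀ (x : F) (m : Fin 2 → F), m ∈ M → x • m ∈ M := by
      intro x m hm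
      rcases hall x with rfl | rfl | rfl
      · simp
      · simpa using hm
      · simpa using M.neg_mem hm
    have hv' : ![v 0, v 1] ∈ M := by rw [← vec2_eq v]; exact hv
    have hcv := hc _ _ hv'
    have hN : v 0 ^ 2 - 3 * v 0 * v 1 + v 1 ^ 2 ≠ 0 := by
      have hne : ¬ (v 0 = 0 ∧ v 1 = 0) := by
        rintro ⟨h0, h1⟩
        apply hv0
        rw [vec2_eq v, h0, h1]
        ext i; fin_cases i <;> rfl
      rcases hall (v 0) with h0 | h0 | h0 <;> rcases hall (v 1) with h1 | h1 | h1
      · exact absurd ⟨h0, h1⟩ hne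
      · rw [h0, h1]; simp
      · rw [h0, h1]; simp
      · rw [h0, h1]; simp
      · rw [h0, h1]
        have : (1 : F) ^ 2 - 3 * 1 * 1 + 1 ^ 2 = -1 := by ring
        rw [this]; simp
      · rw [h0, h1]
        have : (1 : F) ^ 2 - 3 * 1 * (-1) + (-1) ^ 2 = 5 := by ring
        rw [this]; exact h5
      · rw [h0, h1]; simp
      · rw [h0, h1]
        have : (-1 : F) ^ 2 - 3 * (-1) * 1 + 1 ^ 2 = 5 := by ring
        rw [this]; exact h5
      · rw [h0, h1]
        have : (-1 : F) ^ 2 - 3 * (-1) * (-1) + (-1) ^ 2 = -1 := by ring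
        rw [this]; simp
    have hN1 : ![v 0 ^ 2 - 3 * v 0 * v 1 + v 1 ^ 2, 0] ∈ M := by
      have h1 := M.sub_mem (hsm (v 0) _ hv') (hsm (v 1) _ hcv)
      convert h1 using 1
      ext i; fin_cases i
      · simp only [Fin.zero_eta, Fin.isValue, Matrix.cons_val_zero, Pi.sub_apply, Pi.smul_apply,
          smul_eq_mul]
        ring
      · simp only [Fin.mk_one, Fin.isValue, Matrix.cons_val_one, Matrix.cons_val_fin_one,
          Pi.sub_apply, Pi.smul_apply, smul_eq_mul]
        ring
    have hN2 : ![0, v 0 ^ 2 - 3 * v 0 * v 1 + v 1 ^ 2] ∈ M := by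
      have h1 := M.add_mem (hsm (v 1 - 3 * v 0) _ hv') (hsm (v 0) _ hcv)
      convert h1 using 1
      ext i; fin_cases i
      · simp only [Fin.zero_eta, Fin.isValue, Matrix.cons_val_zero, Pi.add_apply, Pi.smul_apply,
          smul_eq_mul]
        ring
      · simp only [Fin.mk_one, Fin.isValue, Matrix.cons_val_one, Matrix.cons_val_fin_one,
          Pi.add_apply, Pi.smul_apply, smul_eq_mul]
        ring
    have he1 : ![(1 : F), 0] ∈ M := by
      have h1 := hsm (v 0 ^ 2 - 3 * v 0 * v 1 + v 1 ^ 2)⁻¹ _ hN1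
      convert h1 using 1
      ext i; fin_cases i
      · simp [hN]
      · simp
    have he2 : ![(0 : F), 1] ∈ M := by
      have h1 := hsm (v 0 ^ 2 - 3 * v 0 * v 1 + v 1 ^ 2)⁻¹ _ hN2
      convert h1 using 1
      ext i; fin_cases i
      · simp
      · simp [hN]
    have hw : w = w 0 • ![(1 : F), 0] + w 1 • ![(0 : F), 1] := by
      ext i; fin_cases i <;> simp
    rw [hw]
    exact M.add_mem (hsm _ _ he1) (hsm _ _ he2)

end SL2

section Alt

variable {N : ℕ}

/-- The vector `e_a + e_b`. -/
def pairVec (a b : Fin N) : Fin N → ZMod 2 := Pi.single a 1 + Pi.single b 1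

theorem zmod2_cases (x : ZMod 2) : x = 0 ∨ x = 1 := by
  revert x; decide

theorem swap_mul_swap_mem {x y z : Fin N} (hxy : x ≠ y) (hyz : y ≠ z) :
    Equiv.swap y z * Equiv.swap x y ∈ alternatingGroup (Fin N) := by
  rw [Equiv.Perm.mem_alternatingGroup, Equiv.Perm.sign_mul, Equiv.Perm.sign_swap hyz,
    Equiv.Perm.sign_swap hxy]
  rfl

theorem alt_replace (M : AddSubgroup (Fin N → ZMod 2))
    (hM : ∀ σ ∈ alternatingGroup (Fin N), ∀ v ∈ M, (fun i => v (σ⁻¹ i)) ∈ M)
    {x y z : Fin N} (hxy : x ≠ y) (hzx : z ≠ x) (hzy : z ≠ y) (h : pairVec x y ∈ M) :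
    pairVec x z ∈ M := by
  have h1 := hM _ (swap_mul_swap_mem hxy hzy.symm) _ h
  convert h1 using 1
  funext u
  simp only [pairVec, Pi.add_apply, Pi.single_apply]
  have e1 : ((Equiv.swap y z * Equiv.swap x y)⁻¹ u = x) ↔ u = z := by
    rw [Equiv.Perm.inv_eq_iff_eq]
    simp [Equiv.Perm.mul_apply]
  have e2 : ((Equiv.swap y z * Equiv.swap x y)⁻¹ u = y) ↔ u = x := by
    rw [Equiv.Perm.inv_eq_iff_eq]
    simp [Equiv.Perm.mul_apply, Equiv.swap_apply_of_ne_of_ne hxy hzx.symm]
  simp only [e1, e2]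
  rw [add_comm]

/-- The even-weight permutation module of the alternating group of odd degree has no proper
nonzero invariant additive subgroup. -/
theorem alt_even_irred (hN : Odd N) (M : AddSubgroup (Fin N → ZMod 2))
    (hM : ∀ σ ∈ alternatingGroup (Fin N), ∀ v ∈ M, (fun i => v (σ⁻¹ i)) ∈ M)
    {v : Fin N → ZMod 2} (hv : v ∈ M) (hv0 : v ≠ 0) (hvs : ∑ i, v i = 0)
    (w : Fin N → ZMod 2) (hw : ∑ i, w i = 0) : w ∈ M := by
  obtain ⟨i, hi⟩ : ∃ i, v i = 1 := by
    by_contra h
    push_neg at h
    apply hv0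
    funext x
    rcases zmod2_cases (v x) with h0 | h1
    · simpa using h0
    · exact absurd h1 (h x)
  obtain ⟨j, hj⟩ : ∃ j, v j = 0 := by
    by_contra h
    push_neg at h
    have h1 : ∀ x, v x = 1 := fun x => (zmod2_cases (v x)).resolve_left (h x)
    have h2 : ∑ x, v x = (N : ZMod 2) := by
      simp [h1]
    rw [hvs] at h2
    have h3 : (2 : ℕ) ∣ N := (ZMod.natCast_eq_zero_iff N 2).mp h2.symm
    exact (Nat.not_even_iff_odd.mpr hN) (even_iff_two_dvd.mpr h3)
  obtain ⟨k, hki, hk⟩ : ∃ k, k ≠ i ∧ v k = 1 := by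
    by_contra h
    push_neg at h
    have h1 : ∑ x, v x = v i := by
      apply Finset.sum_eq_single i
      · intro b _ hb
        exact (zmod2_cases (v b)).resolve_right (h b hb)
      · intro h'; exact absurd (Finset.mem_univ i) h'
    rw [hvs, hi] at h1
    exact zero_ne_one h1
  have hij : i ≠ j := by
    rintro rfl; rw [hi] at hj; exact one_ne_zero hj
  have hkj : k ≠ j := by
    rintro rfl; rw [hk] at hj; exact one_ne_zero hj
  have h1 := hM _ (swap_mul_swap_mem hij hkj.symm) _ hv
  have h2 : pairVec i j ∈ M := by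
    have h3 := M.add_mem hv h1
    convert h3 using 1
    funext u
    have hinv : (Equiv.swap j k * Equiv.swap i j)⁻¹ = Equiv.swap i j * Equiv.swap j k := by
      rw [mul_inv_rev, Equiv.swap_inv, Equiv.swap_inv]
    simp only [pairVec, Pi.add_apply, Pi.single_apply]
    rw [hinv, Equiv.Perm.mul_apply]
    by_cases hui : u = i
    · subst hui
      rw [Equiv.swap_apply_of_ne_of_ne hij hki.symm, Equiv.swap_apply_left, hi, hj]
      simp [hij]
    · by_cases huj : u = j
      · subst huj
        rw [Equiv.swap_apply_left, Equiv.swap_apply_of_ne_of_ne hki hkj, hj, hk]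
        simp [hui]
      · by_cases huk : u = k
        · subst huk
          rw [Equiv.swap_apply_right, Equiv.swap_apply_right, hk, hi]
          simp [hui, huj]
          exact (CharTwo.add_self_eq_zero (1 : ZMod 2)).symm
        · rw [Equiv.swap_apply_of_ne_of_ne huj huk, Equiv.swap_apply_of_ne_of_ne hui huj]
          simp only [hui, huj, if_false, add_zero]
          exact (CharTwo.add_self_eq_zero (v u)).symm
  have hall : ∀ x, pairVec i x ∈ M := by
    intro x
    by_cases hxi : x = i
    · subst hxi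
      have : pairVec x x = 0 := by
        funext u
        simp only [pairVec, Pi.add_apply, Pi.zero_apply]
        exact CharTwo.add_self_eq_zero _
      rw [this]; exact M.zero_mem
    · by_cases hxj : x = j
      · subst hxj; exact h2
      · exact alt_replace M hM hij hxi hxj h2
  have hsum : w = ∑ x, w x • pairVec i x := by
    funext u
    simp only [Finset.sum_apply, Pi.smul_apply, pairVec, Pi.add_apply, Pi.single_apply,
      smul_eq_mul, mul_add, Finset.sum_add_distrib, ← Finset.sum_mul, hw, zero_mul, zero_add,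
      mul_ite, mul_one, mul_zero, Finset.sum_ite_eq, Finset.mem_univ, if_true]
    have h0 : (∑ x, if u = i then w x else 0) = 0 := by
      by_cases h : u = i <;> simp [h, hw]
    rw [h0, zero_add]
  rw [hsum]
  refine M.sum_mem (fun x _ => ?_)
  rcases zmod2_cases (w x) with h0 | h1
  · rw [h0, zero_smul]; exact M.zero_mem
  · rw [h1, one_smul]; exact hall x

end Alt

end Cfsg.Agent.Lib.Helper85.BB
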