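import Mathlib
import Cfsg.Prelude.Def_BaumannBlocks
import Cfsg.Agent.Lib.Helper85.BB.Irred

/-!
Sections on which a subgroup acts as on a natural module: an invariant subgroup not inside the
bottom of the section covers the section.  Also the coprime-action lemma used for blocks.
(helper85)
-/

set_option autoImplicit false

namespace Cfsg.Agent.Lib.Helper85.BB

open Cfsg
open scoped commutatorElement

universe u

variable {G : Type u} [Group G]

/-- Natural `SL₂(F)'`-module section: an `E`-invariant subgroup `X ≤ U` with `X ≰ U₀` covers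
`U / U₀`. -/
theorem sl2_section_cover {F : Type} [Field F] {E U U₀ X : Subgroup G}
    (h : ActsAsSL2OnSection F (commutator (Matrix.SpecialLinearGroup (Fin 2) F)) E U U₀)
    (hXU : X ≤ U) (hEX : ∀ e ∈ E, ∀ x ∈ X, e * x * e⁻¹ ∈ X) (hX : ¬ X ≤ U₀) :
    ∀ u ∈ U, ∃ x ∈ X, ∃ z ∈ U₀, u = x * z := by
  obtain ⟨-, -, ρ, ψ, hρ, -, hψk, hact⟩ := h
  let M : AddSubgroup (Fin 2 → F) :=
    { carrier := {v | ∃ x : ↥U, (x : G) ∈ X ∧ Multiplicative.toAdd (ψ x) = v}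
      zero_mem' := ⟨1, X.one_mem, by simp⟩
      add_mem' := by
        rintro _ _ ⟨x, hx, rfl⟩ ⟨y, hy, rfl⟩
        exact ⟨x * y, X.mul_mem hx hy, by simp⟩
      neg_mem' := by
        rintro _ ⟨x, hx, rfl⟩
        exact ⟨x⁻¹, X.inv_mem hx, by simp⟩ }
  have hM : ∀ r ∈ commutator (Matrix.SpecialLinearGroup (Fin 2) F), ∀ v ∈ M,
      (r : Matrix (Fin 2) (Fin 2) F).mulVec v ∈ M := by
    intro r hr v hv
    rw [← hρ] at hr
    obtain ⟨e, rfl⟩ := hr
    obtain ⟨x, hx, rfl⟩ := hv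
    obtain ⟨w, hw, hw'⟩ := hact e x
    refine ⟨w, ?_, hw'⟩
    rw [hw]
    exact hEX _ e.2 _ hx
  obtain ⟨x₀, hx₀, hx₀'⟩ := SetLike.not_le_iff_exists.mp hX
  have hv0 : Multiplicative.toAdd (ψ ⟨x₀, hXU hx₀⟩) ≠ 0 := by
    intro h0
    apply hx₀'
    have : ψ ⟨x₀, hXU hx₀⟩ = 1 := h0
    exact (hψk _).mp this
  have hv : Multiplicative.toAdd (ψ ⟨x₀, hXU hx₀⟩) ∈ M := ⟨_, hx₀, rfl⟩
  intro u hu
  obtain ⟨x, hx, hxu⟩ : Multiplicative.toAdd (ψ ⟨u, hu⟩) ∈ M :=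
    sl2_natural_irred M hM hv hv0 _
  refine ⟨x, hx, (x : G)⁻¹ * u, ?_, by group⟩
  have h1 : ψ (x⁻¹ * ⟨u, hu⟩) = 1 := by
    have h2 : ψ x = ψ ⟨u, hu⟩ := hxu
    rw [map_mul, map_inv, h2, inv_mul_cancel]
  exact (hψk _).mp h1

/-- Even-weight module section of the alternating group of odd degree: an `E`-invariant subgroup
`X ≤ U` with `X ≰ U₀` covers `U / U₀`. -/
theorem alt_section_cover {n : ℕ} (hn : Odd n) {E U U₀ X : Subgroup G}
    (h : ActsAsOddPermModuleOnSection n (alternatingGroup (Fin n)) E U U₀)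
    (hXU : X ≤ U) (hEX : ∀ e ∈ E, ∀ x ∈ X, e * x * e⁻¹ ∈ X) (hX : ¬ X ≤ U₀) :
    ∀ u ∈ U, ∃ x ∈ X, ∃ z ∈ U₀, u = x * z := by
  obtain ⟨-, -, ρ, ψ, hρ, hev, -, hψk, hact⟩ := h
  let M : AddSubgroup (Fin n → ZMod 2) :=
    { carrier := {v | ∃ x : ↥U, (x : G) ∈ X ∧ Multiplicative.toAdd (ψ x) = v}
      zero_mem' := ⟨1, X.one_mem, by simp⟩
      add_mem' := by
        rintro _ _ ⟨x, hx, rfl⟩ ⟨y, hy, rfl⟩
        exact ⟨x * y, X.mul_mem hx hy, by simp⟩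
      neg_mem' := by
        rintro _ ⟨x, hx, rfl⟩
        exact ⟨x⁻¹, X.inv_mem hx, by simp⟩ }
  have hM : ∀ σ ∈ alternatingGroup (Fin n), ∀ v ∈ M, (fun i => v (σ⁻¹ i)) ∈ M := by
    intro r hr v hv
    rw [← hρ] at hr
    obtain ⟨e, rfl⟩ := hr
    obtain ⟨x, hx, rfl⟩ := hv
    obtain ⟨w, hw, hw'⟩ := hact e x
    refine ⟨w, ?_, funext hw'⟩
    rw [hw]
    exact hEX _ e.2 _ hx
  obtain ⟨x₀, hx₀, hx₀'⟩ := SetLike.not_le_iff_exists.mp hX
  have hv0 : Multiplicative.toAdd (ψ ⟨x₀, hXU hx₀⟩) ≠ 0 := by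
    intro h0
    apply hx₀'
    have : ψ ⟨x₀, hXU hx₀⟩ = 1 := h0
    exact (hψk _).mp this
  have hv : Multiplicative.toAdd (ψ ⟨x₀, hXU hx₀⟩) ∈ M := ⟨_, hx₀, rfl⟩
  intro u hu
  obtain ⟨x, hx, hxu⟩ : Multiplicative.toAdd (ψ ⟨u, hu⟩) ∈ M :=
    alt_even_irred hn M hM hv hv0 (hev _) _ (hev _)
  refine ⟨x, hx, (x : G)⁻¹ * u, ?_, by group⟩
  have h1 : ψ (x⁻¹ * ⟨u, hu⟩) = 1 := by
    have h2 : ψ x = ψ ⟨u, hu⟩ := hxu
    rw [map_mul, map_inv, h2, inv_mul_cancel]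
  exact (hψk _).mp h1

/-- Coprime action: if every element `x` of `E = O^p(E)` commutes with its commutators
`[x, v]`, `v ∈ V`, with the `p`-group `V` normalized by `E`, then `E` centralizes `V`. -/
theorem centralize_of_residual {p : ℕ} {E V : Subgroup G} (hres : pResidualOf p E = E)
    (hV : IsPGroup p V) (hEV : ∀ x ∈ E, ∀ v ∈ V, x * v * x⁻¹ ∈ V)
    (hc : ∀ x ∈ E, ∀ v ∈ V, x * (x * v * x⁻¹ * v⁻¹) = (x * v * x⁻¹ * v⁻¹) * x) :
    ∀ x ∈ E, ∀ v ∈ V, x * v = v * x := by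
  have key : ∀ y : ↥E, y ∈ Subgroup.closure {g : ↥E | (orderOf g).Coprime p} →
      ∀ v ∈ V, (y : G) * v = v * (y : G) := by
    intro y hy
    refine Subgroup.closure_induction
      (p := fun (y : ↥E) _ => ∀ v ∈ V, (y : G) * v = v * (y : G)) ?_ ?_ ?_ ?_ hy
    · intro x hx v hv
      have hx' : (orderOf (x : G)).Coprime p := by
        rw [Subgroup.orderOf_coe]; exact hx
      have hcomm := hc _ x.2 v hv
      have hcV : (x : G) * v * (x : G)⁻¹ * v⁻¹ ∈ V := V.mul_mem (hEV _ x.2 v hv) (V.inv_mem hv)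
      have hpow : ∀ k : ℕ, (x : G) ^ k * v * ((x : G) ^ k)⁻¹ =
          ((x : G) * v * (x : G)⁻¹ * v⁻¹) ^ k * v := by
        intro k
        induction k with
        | zero => simp
        | succ k ih =>
          have h1 : (x : G) ^ (k + 1) * v * ((x : G) ^ (k + 1))⁻¹ =
              (x : G) * ((x : G) ^ k * v * ((x : G) ^ k)⁻¹) * (x : G)⁻¹ := by
            rw [pow_succ']; group
          have h2 : (x : G) * ((x : G) * v * (x : G)⁻¹ * v⁻¹) ^ k =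
              ((x : G) * v * (x : G)⁻¹ * v⁻¹) ^ k * (x : G) :=
            (Commute.pow_right hcomm k).eq
          rw [h1, ih, ← mul_assoc, h2, pow_succ]
          group
      have h3 := hpow (orderOf (x : G))
      rw [pow_orderOf_eq_one, one_mul, inv_one, mul_one] at h3
      have h4 : ((x : G) * v * (x : G)⁻¹ * v⁻¹) ^ orderOf (x : G) = 1 := by
        have := h3.symm
        exact mul_eq_right.mp this
      obtain ⟨a, ha⟩ := hV ⟨_, hcV⟩
      have ha' : ((x : G) * v * (x : G)⁻¹ * v⁻¹) ^ (p ^ a) = 1 := congrArg Subtype.val ha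
      have h5 : orderOf ((x : G) * v * (x : G)⁻¹ * v⁻¹) ∣ Nat.gcd (orderOf (x : G)) (p ^ a) :=
        Nat.dvd_gcd (orderOf_dvd_of_pow_eq_one h4) (orderOf_dvd_of_pow_eq_one ha')
      have h6 : Nat.gcd (orderOf (x : G)) (p ^ a) = 1 := Nat.Coprime.pow_right a hx'
      rw [h6, Nat.dvd_one, orderOf_eq_one_iff] at h5
      have h7 : (x : G) * v = ((x : G) * v * (x : G)⁻¹ * v⁻¹) * (v * (x : G)) := by group
      rw [h7, h5, one_mul]
    · intro v _; simp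
    · intro a b _ _ iha ihb v hv
      rw [Subgroup.coe_mul, mul_assoc, ihb v hv, ← mul_assoc, iha v hv, mul_assoc]
    · intro a _ iha v hv
      rw [Subgroup.coe_inv]
      have := iha v hv
      calc (a : G)⁻¹ * v = (a : G)⁻¹ * (v * (a : G)) * (a : G)⁻¹ := by group
        _ = (a : G)⁻¹ * ((a : G) * v) * (a : G)⁻¹ := by rw [this]
        _ = v * (a : G)⁻¹ := by group
  intro x hx v hv
  have hx' : x ∈ pResidualOf p E := by rw [hres]; exact hx
  unfold pResidualOf at hx'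
  obtain ⟨y, hy, rfl⟩ := hx'
  exact key y hy v hv

end Cfsg.Agent.Lib.Helper85.BB
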