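import Mathlib
import Cfsg.Prelude.Def_BaumannBlocks
import Cfsg.Agent.Lib.Helper85.BB.Basic
import Cfsg.Agent.Lib.Helper85.BB.Section
import Cfsg.Agent.Lib.Helper11.ThompsonOf
import Cfsg.Agent.Lib.Helper47.Subn

/-!
`B(T)`-blocks of a group of characteristic `p`: `E = O^p(E O_p(G))`, the commutator module
`W_E = [Ω₁(Z(O_p(E))), E]` lies in `Ω₁(Z(O_p(G)))`, and `J(T)` does not centralize `W_E`.
(helper85)
-/

set_option autoImplicit false

namespace Cfsg.Agent.Lib.Helper85.BB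

open Cfsg
open scoped commutatorElement

universe u

variable {G : Type u} [Group G]

theorem omegaOneCenter_le (p : ℕ) (X : Subgroup G) : omegaOneCenter p X ≤ X := by
  unfold omegaOneCenter omegaOne
  rw [Subgroup.closure_le]
  intro z hz
  exact (Subgroup.mem_inf.mp hz.1).1

theorem omegaOneCenter_le_centralizer (p : ℕ) (X : Subgroup G) :
    omegaOneCenter p X ≤ Subgroup.centralizer (X : Set G) := by
  unfold omegaOneCenter omegaOne
  rw [Subgroup.closure_le]
  intro z hz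
  exact (Subgroup.mem_inf.mp hz.1).2

theorem omegaOneCenter_pow (p : ℕ) (X : Subgroup G) : ∀ x ∈ omegaOneCenter p X, x ^ p = 1 := by
  intro x hx
  have hle : omegaOneCenter p X ≤ X ⊓ Subgroup.centralizer (X : Set G) :=
    le_inf (omegaOneCenter_le p X) (omegaOneCenter_le_centralizer p X)
  unfold omegaOneCenter omegaOne at hx
  induction hx using Subgroup.closure_induction with
  | mem y hy => exact hy.2
  | one => simp
  | mul a b ha hb iha ihb =>
    have ha' : a ∈ X ⊓ Subgroup.centralizer (X : Set G) := hle ha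
    have hb' : b ∈ X ⊓ Subgroup.centralizer (X : Set G) := hle hb
    have hc : Commute a b :=
      Subgroup.mem_centralizer_iff.mp (Subgroup.mem_inf.mp hb').2 a (Subgroup.mem_inf.mp ha').1
    rw [hc.mul_pow, iha, ihb, one_mul]
  | inv a _ iha => rw [inv_pow, iha, inv_one]

theorem normalizer_le_normalizer_omegaOneCenter (p : ℕ) (X : Subgroup G) :
    Subgroup.normalizer (X : Set G) ≤ Subgroup.normalizer (omegaOneCenter p X : Set G) := by
  intro g hg
  unfold omegaOneCenter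
  exact normalizer_le_normalizer_omegaOne p _
    (mem_normalizer_inf hg (Cfsg.Agent.Lib.Helper47.normalizer_le_normalizer_centralizer _ hg))

theorem pResidualOf_mono (p : ℕ) {H K : Subgroup G} (h : H ≤ K) :
    pResidualOf p H ≤ pResidualOf p K := by
  unfold pResidualOf pResidual
  rw [Subgroup.map_le_iff_le_comap, Subgroup.closure_le]
  intro g hg
  show (g : G) ∈ Subgroup.map K.subtype (Subgroup.closure {g : ↥K | (orderOf g).Coprime p})
  refine ⟨⟨(g : G), h g.2⟩, Subgroup.subset_closure ?_, rfl⟩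
  show (orderOf (⟨(g : G), h g.2⟩ : ↥K)).Coprime p
  have e : orderOf (⟨(g : G), h g.2⟩ : ↥K) = orderOf g := by
    rw [← Subgroup.orderOf_coe, ← Subgroup.orderOf_coe g]
  rw [e]
  exact hg

/-- `O^p(E P) = E` when `E = O^p(E)` and the `p`-group `P` normalizes `E`. -/
theorem residual_sup_eq {p : ℕ} {E P : Subgroup G} (hres : pResidualOf p E = E)
    (hP : IsPGroup p P) (hPE : P ≤ Subgroup.normalizer (E : Set G)) :
    pResidualOf p (E ⊔ P) = E := by
  apply le_antisymm
  · unfold pResidualOf pResidual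
    rw [Subgroup.map_le_iff_le_comap, Subgroup.closure_le]
    intro g hg
    show (g : G) ∈ E
    have hg' : (orderOf (g : G)).Coprime p := by
      rw [Subgroup.orderOf_coe]; exact hg
    exact coprime_mem_of_mem_sup hP
      (fun z hz w hw => (Subgroup.mem_normalizer_iff.mp (hPE hz) w).mp hw) _ g.2 hg'
  · calc E = pResidualOf p E := hres.symm
      _ ≤ pResidualOf p (E ⊔ P) := pResidualOf_mono p le_sup_left

theorem commutator_conj_mem {A B : Subgroup G} {g : G}
    (hA : g ∈ Subgroup.normalizer (A : Set G)) (hB : g ∈ Subgroup.normalizer (B : Set G)) :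
    ∀ x ∈ ⁅A, B⁆, g * x * g⁻¹ ∈ ⁅A, B⁆ := by
  intro x hx
  have h1 : (⁅A, B⁆).map (MulAut.conj g).toMonoidHom = ⁅A, B⁆ := by
    rw [Subgroup.map_commutator, Cfsg.Agent.Lib.Helper11.map_conj_eq_of_mem_normalizer hA,
      Cfsg.Agent.Lib.Helper11.map_conj_eq_of_mem_normalizer hB]
  have h2 : g * x * g⁻¹ ∈ (⁅A, B⁆).map (MulAut.conj g).toMonoidHom := ⟨x, hx, by simp⟩
  rwa [h1] at h2

theorem comm_le_of_cover {E W X Z : Subgroup G}
    (hcover : ∀ u ∈ W, ∃ x ∈ X, ∃ z ∈ Z, u = x * z)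
    (hZE : Z ≤ Subgroup.centralizer (E : Set G))
    (hEX : ∀ e ∈ E, ∀ x ∈ X, e * x * e⁻¹ ∈ X) : ⁅W, E⁆ ≤ X := by
  rw [Subgroup.commutator_le]
  intro u hu e he
  obtain ⟨x, hx, z, hz, rfl⟩ := hcover u hu
  have hze : e * z = z * e := Subgroup.mem_centralizer_iff.mp (hZE hz) e he
  have h1 : z * e * z⁻¹ = e := by rw [← hze]; group
  have h2 : ⁅x * z, e⁆ = x * (e * x⁻¹ * e⁻¹) := by
    rw [commutatorElement_def]
    calc x * z * e * (x * z)⁻¹ * e⁻¹ = x * (z * e * z⁻¹) * x⁻¹ * e⁻¹ := by group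
      _ = x * (e * x⁻¹ * e⁻¹) := by rw [h1]; group
  rw [h2]
  exact X.mul_mem hx (hEX e he _ (X.inv_mem hx))

theorem elemAb_sup {p : ℕ} {A U : Subgroup G} (hA : IsElementaryAbelian p A)
    (hUab : ∀ a ∈ U, ∀ b ∈ U, a * b = b * a) (hUpow : ∀ u ∈ U, u ^ p = 1)
    (hAU : ∀ a ∈ A, ∀ u ∈ U, a * u = u * a) : IsElementaryAbelian p (A ⊔ U) := by
  have hAc := hA.1
  have hAN : A ≤ Subgroup.normalizer (U : Set G) := by
    intro a ha
    apply mem_normalizer_of_conj_mem'
    · intro u hu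
      have : a * u * a⁻¹ = u := by rw [hAU a ha u hu]; group
      rw [this]; exact hu
    · intro u hu
      have : a⁻¹ * u * a = u := by rw [mul_assoc, ← hAU a ha u hu]; group
      rw [this]; exact hu
  have hdec : ∀ x ∈ A ⊔ U, ∃ a ∈ A, ∃ u ∈ U, x = a * u := by
    intro x hx
    have hx' : x ∈ ((A ⊔ U : Subgroup G) : Set G) := hx
    rw [Subgroup.coe_mul_of_left_le_normalizer_right A U hAN] at hx'
    obtain ⟨a, ha, u, hu, rfl⟩ := hx'
    exact ⟨a, ha, u, hu, rfl⟩
  refine ⟨IsMulCommutative.of_setLike_mul_comm ?_, ?_⟩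
  · intro x hx y hy
    obtain ⟨a, ha, u, hu, rfl⟩ := hdec x hx
    obtain ⟨b, hb, v, hv, rfl⟩ := hdec y hy
    have e1 : a * b = b * a := setLike_mul_comm ha hb
    have e2 := hUab u hu v hv
    have e3 := hAU b hb u hu
    have e4 := hAU a ha v hv
    calc a * u * (b * v) = a * (u * b) * v := by group
      _ = a * (b * u) * v := by rw [e3]
      _ = (a * b) * (u * v) := by group
      _ = (b * a) * (v * u) := by rw [e1, e2]
      _ = b * (a * v) * u := by group
      _ = b * (v * a) * u := by rw [e4]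
      _ = b * v * (a * u) := by group
  · intro x hx
    obtain ⟨a, ha, u, hu, rfl⟩ := hdec x hx
    have hc : Commute a u := hAU a ha u hu
    rw [hc.mul_pow, hA.2 a ha, hUpow u hu, one_mul]

/-- The three assertions of S2984. -/
theorem s2984_core [Finite G] {p : ℕ} [Fact p.Prime]
    (hG : Subgroup.centralizer (pCore p G : Set G) ≤ pCore p G) (T : Sylow p G) (E : Subgroup G)
    (hE : IsBaumannBlock p (T : Subgroup G) E) :
    pResidualOf p (E ⊔ pCore p G) = E ∧
      ⁅omegaOneCenter p (pCoreOf p E), E⁆ ≤ omegaOneCenter p (pCore p G) ∧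
      ⁅⁅omegaOneCenter p (pCoreOf p E), E⁆, thompsonSubgroupOf p (T : Subgroup G)⁆ ≠ ⊥ := by
  have hEblock := hE
  obtain ⟨hres, hEB, hQE, hEZ, hstruct⟩ := hE
  have hPn : (pCore p G).Normal := Subgroup.sSup_normal _ (fun _ h => h.1)
  have hPp : IsPGroup p (pCore p G) := Cfsg.Agent.Lib.Helper47.pCore_isPGroup p G
  have hPT : pCore p G ≤ (T : Subgroup G) := Cfsg.Agent.Lib.Helper47.pCore_le_sylow T
  have hNP : ∀ g : G, g ∈ Subgroup.normalizer ((pCore p G : Subgroup G) : Set G) := by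
    intro g
    apply mem_normalizer_of_conj_mem'
    · intro x hx; exact hPn.conj_mem x hx g
    · intro x hx
      have := hPn.conj_mem x hx g⁻¹
      simpa using this
  have hPE : pCore p G ≤ Subgroup.normalizer (E : Set G) :=
    block_le_normalizer T hEblock hPp (fun g _ => hNP g) (fun g _ => hNP g)
  refine ⟨residual_sup_eq hres hPp hPE, ?_⟩
  have hQp : IsPGroup p (pCoreOf p E) := Cfsg.Agent.Lib.Helper47.pCoreOf_isPGroup p E
  have hEQ : E ≤ Subgroup.normalizer ((pCoreOf p E : Subgroup G) : Set G) :=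
    Cfsg.Agent.Lib.Helper47.le_normalizer_pCoreOf p E
  have hWQ : omegaOneCenter p (pCoreOf p E) ≤ pCoreOf p E := omegaOneCenter_le p _
  have hWc : omegaOneCenter p (pCoreOf p E) ≤ Subgroup.centralizer ((pCoreOf p E : Subgroup G) : Set G) :=
    omegaOneCenter_le_centralizer p _
  have hEW : E ≤ Subgroup.normalizer ((omegaOneCenter p (pCoreOf p E) : Subgroup G) : Set G) :=
    hEQ.trans (normalizer_le_normalizer_omegaOneCenter p _)
  have hVP : omegaOneCenter p (pCore p G) ≤ pCore p G := omegaOneCenter_le p _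
  have hVc : omegaOneCenter p (pCore p G) ≤ Subgroup.centralizer ((pCore p G : Subgroup G) : Set G) :=
    omegaOneCenter_le_centralizer p _
  have hVN : ∀ g : G, g ∈ Subgroup.normalizer ((omegaOneCenter p (pCore p G) : Subgroup G) : Set G) :=
    fun g => normalizer_le_normalizer_omegaOneCenter p _ (hNP g)
  haveI hVn : (omegaOneCenter p (pCore p G)).Normal := by
    constructor
    intro n hn g
    exact (Subgroup.mem_normalizer_iff.mp (hVN g) n).mp hn
  have hZT : omegaOneCenter p (T : Subgroup G) ≤ omegaOneCenter p (pCore p G) := by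
    unfold omegaOneCenter omegaOne
    apply Subgroup.closure_mono
    rintro x ⟨hx, hxp⟩
    have hxc : x ∈ Subgroup.centralizer ((pCore p G : Subgroup G) : Set G) :=
      Subgroup.centralizer_le hPT (Subgroup.mem_inf.mp hx).2
    exact ⟨Subgroup.mem_inf.mpr ⟨hG hxc, hxc⟩, hxp⟩
  have hXV : ⁅omegaOneCenter p (pCore p G), E⁆ ≤ omegaOneCenter p (pCore p G) :=
    Subgroup.commutator_le_left _ _
  have hXE : ⁅omegaOneCenter p (pCore p G), E⁆ ≤ E := by
    rw [Subgroup.commutator_le]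
    intro v hv e he
    have hvN := hPE (hVP hv)
    have h1 : v * e * v⁻¹ ∈ E := (Subgroup.mem_normalizer_iff.mp hvN e).mp he
    rw [commutatorElement_def]
    exact E.mul_mem h1 (E.inv_mem he)
  have hX1 : ⁅omegaOneCenter p (pCore p G), E⁆ ≠ ⊥ := by
    intro h
    apply hEZ
    rw [eq_bot_iff, ← h, Subgroup.commutator_comm]
    exact Subgroup.commutator_mono hZT le_rfl
  have hEX : ∀ e ∈ E, ∀ x ∈ ⁅omegaOneCenter p (pCore p G), E⁆,
      e * x * e⁻¹ ∈ ⁅omegaOneCenter p (pCore p G), E⁆ :=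
    fun e he => commutator_conj_mem (hVN e) (Subgroup.le_normalizer he)
  have hXp : IsPGroup p (⁅omegaOneCenter p (pCore p G), E⁆ : Subgroup G) := hPp.to_le (hXV.trans hVP)
  have hXQ : ⁅omegaOneCenter p (pCore p G), E⁆ ≤ pCoreOf p E := by
    refine Cfsg.Agent.Lib.Helper47.le_pCoreOf_of_le_normalizer hXp hXE ?_
    intro e he
    apply mem_normalizer_of_conj_mem' (hEX e he)
    intro x hx
    have := hEX e⁻¹ (E.inv_mem he) x hx
    simpa using this
  have hcommV : ∀ x ∈ E, ∀ v ∈ omegaOneCenter p (pCore p G),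
      x * v * x⁻¹ * v⁻¹ ∈ ⁅omegaOneCenter p (pCore p G), E⁆ := by
    intro x hx v hv
    have h2 : ⁅v, x⁆ ∈ ⁅omegaOneCenter p (pCore p G), E⁆ :=
      Subgroup.commutator_mem_commutator hv hx
    have h3 : x * v * x⁻¹ * v⁻¹ = ⁅v, x⁆⁻¹ := by rw [commutatorElement_def]; group
    rw [h3]; exact Subgroup.inv_mem _ h2
  have hXnc : ¬ ⁅omegaOneCenter p (pCore p G), E⁆ ≤ Subgroup.centralizer (E : Set G) := by
    intro hle
    apply hX1
    rw [Subgroup.commutator_eq_bot_iff_le_centralizer]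
    intro v hv
    rw [Subgroup.mem_centralizer_iff]
    intro e he
    exact centralize_of_residual hres (hPp.to_le hVP)
      (fun x _ v hv => (Subgroup.mem_normalizer_iff.mp (hVN x) v).mp hv)
      (fun x hx v hv => Subgroup.mem_centralizer_iff.mp (hle (hcommV x hx v hv)) x hx) e he v hv
  have hVab : ∀ a ∈ omegaOneCenter p (pCore p G), ∀ b ∈ omegaOneCenter p (pCore p G),
      a * b = b * a := by
    intro a ha b hb
    exact Subgroup.mem_centralizer_iff.mp (hVc hb) a (hVP ha)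
  have hXnZ : ¬ ⁅omegaOneCenter p (pCore p G), E⁆ ≤
      omegaOneCenter p (pCoreOf p E) ⊓ Subgroup.centralizer (E : Set G) :=
    fun h => hXnc (h.trans inf_le_right)
  have hkey : ⁅omegaOneCenter p (pCore p G), E⁆ ≤ omegaOneCenter p (pCoreOf p E) ∧
      (∀ u ∈ omegaOneCenter p (pCoreOf p E), ∃ x ∈ ⁅omegaOneCenter p (pCore p G), E⁆,
        ∃ z ∈ omegaOneCenter p (pCoreOf p E) ⊓ Subgroup.centralizer (E : Set G), u = x * z) := by
    rcases hstruct with ⟨F, instF, instFt, n, hcard, -, hsecW, halt⟩ | ⟨-, m, -, hsecW, hQW⟩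
    · have hXW : ⁅omegaOneCenter p (pCore p G), E⁆ ≤ omegaOneCenter p (pCoreOf p E) := by
        rcases halt with hQW | ⟨-, hsecQ, hQQ, -, hEZ', hcardZ, -⟩
        · exact hXQ.trans (le_of_eq hQW)
        · by_contra hnot
          have hcov := sl2_section_cover hsecQ hXQ hEX hnot
          have hab : ⁅pCoreOf p E, pCoreOf p E⁆ = ⊥ := by
            rw [Subgroup.commutator_eq_bot_iff_le_centralizer]
            intro q₁ hq₁
            rw [Subgroup.mem_centralizer_iff]
            intro q₂ hq₂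
            obtain ⟨x₁, hx₁, z₁, hz₁, rfl⟩ := hcov q₁ hq₁
            obtain ⟨x₂, hx₂, z₂, hz₂, rfl⟩ := hcov q₂ hq₂
            have hxx : x₁ * x₂ = x₂ * x₁ := hVab _ (hXV hx₁) _ (hXV hx₂)
            have c1 : ∀ q ∈ pCoreOf p E, q * z₁ = z₁ * q :=
              fun q hq => Subgroup.mem_centralizer_iff.mp (hWc hz₁) q hq
            have c2 : ∀ q ∈ pCoreOf p E, q * z₂ = z₂ * q :=
              fun q hq => Subgroup.mem_centralizer_iff.mp (hWc hz₂) q hq
            have e1 := c1 x₂ (hXQ hx₂)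
            have e2 := c2 x₁ (hXQ hx₁)
            have e3 := c1 z₂ (hWQ hz₂)
            calc x₂ * z₂ * (x₁ * z₁) = x₂ * (z₂ * x₁) * z₁ := by group
              _ = x₂ * (x₁ * z₂) * z₁ := by rw [e2]
              _ = (x₂ * x₁) * (z₂ * z₁) := by group
              _ = (x₁ * x₂) * (z₁ * z₂) := by rw [hxx, e3]
              _ = x₁ * (x₂ * z₁) * z₂ := by group
              _ = x₁ * (z₁ * x₂) * z₂ := by rw [e1]
              _ = x₁ * z₁ * (x₂ * z₂) := by group
          rw [hQQ] at hab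
          rw [hEZ', hab, Subgroup.card_bot] at hcardZ
          have hn0 : n = 0 := by
            by_contra hn
            have h3 : 3 ^ 1 ≤ 3 ^ n := Nat.pow_le_pow_right (by norm_num) (Nat.one_le_iff_ne_zero.mpr hn)
            omega
          rw [hn0, pow_zero, ← Nat.card_eq_fintype_card] at hcard
          have h4 := Finite.one_lt_card (α := F)
          omega
      exact ⟨hXW, sl2_section_cover hsecW hXW hEX hXnZ⟩
    · have hXW : ⁅omegaOneCenter p (pCore p G), E⁆ ≤ omegaOneCenter p (pCoreOf p E) :=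
        hXQ.trans (le_of_eq hQW)
      exact ⟨hXW, alt_section_cover ⟨m, rfl⟩ hsecW hXW hEX hXnZ⟩
  have hWE : ⁅omegaOneCenter p (pCoreOf p E), E⁆ ≤ ⁅omegaOneCenter p (pCore p G), E⁆ :=
    comm_le_of_cover hkey.2 inf_le_right hEX
  have hUV : ⁅omegaOneCenter p (pCoreOf p E), E⁆ ≤ omegaOneCenter p (pCore p G) := hWE.trans hXV
  refine ⟨hUV, ?_⟩
  intro hbot
  have hUT : ⁅omegaOneCenter p (pCoreOf p E), E⁆ ≤ (T : Subgroup G) := hUV.trans (hVP.trans hPT)
  have hUpow : ∀ u ∈ ⁅omegaOneCenter p (pCoreOf p E), E⁆, u ^ p = 1 :=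
    fun u hu => omegaOneCenter_pow p _ u (hUV hu)
  have hUab : ∀ a ∈ ⁅omegaOneCenter p (pCoreOf p E), E⁆,
      ∀ b ∈ ⁅omegaOneCenter p (pCoreOf p E), E⁆, a * b = b * a :=
    fun a ha b hb => hVab a (hUV ha) b (hUV hb)
  have hUJ : ⁅omegaOneCenter p (pCoreOf p E), E⁆ ≤
      Subgroup.centralizer ((thompsonSubgroupOf p (T : Subgroup G) : Subgroup G) : Set G) :=
    Subgroup.commutator_eq_bot_iff_le_centralizer.mp hbot
  have hUA : ∀ A ∈ Cfsg.Agent.Lib.Helper11.maxElemAbIn p (T : Subgroup G),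
      ⁅omegaOneCenter p (pCoreOf p E), E⁆ ≤ A := by
    intro A hA
    have hAJ : A ≤ thompsonSubgroupOf p (T : Subgroup G) :=
      Cfsg.Agent.Lib.Helper11.le_thompsonSubgroupOf hA
    have hel : IsElementaryAbelian p (A ⊔ ⁅omegaOneCenter p (pCoreOf p E), E⁆) :=
      elemAb_sup hA.2.1 hUab hUpow
        (fun a ha u hu => Subgroup.mem_centralizer_iff.mp (hUJ hu) a (hAJ ha))
    have hc := hA.2.2 _ (sup_le hA.1 hUT) hel
    have heq : A = A ⊔ ⁅omegaOneCenter p (pCoreOf p E), E⁆ :=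
      Subgroup.eq_of_le_of_card_ge le_sup_left hc
    rw [heq]; exact le_sup_right
  obtain ⟨A₀, hA₀⟩ := Cfsg.Agent.Lib.Helper11.maxElemAbIn_nonempty p (T : Subgroup G)
  have hUJ' : ⁅omegaOneCenter p (pCoreOf p E), E⁆ ≤ thompsonSubgroupOf p (T : Subgroup G) :=
    (hUA A₀ hA₀).trans (Cfsg.Agent.Lib.Helper11.le_thompsonSubgroupOf hA₀)
  have hUΩ : ⁅omegaOneCenter p (pCoreOf p E), E⁆ ≤
      omegaOne p (centerThompsonOf p (T : Subgroup G)) := by
    intro u hu
    exact Subgroup.subset_closure ⟨Subgroup.mem_inf.mpr ⟨hUJ' hu, hUJ hu⟩, hUpow u hu⟩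
  have hBU : ⁅baumannSubgroupOf p (T : Subgroup G), ⁅omegaOneCenter p (pCoreOf p E), E⁆⁆ = ⊥ := by
    rw [Subgroup.commutator_eq_bot_iff_le_centralizer]
    intro b hb
    have hb' : b ∈ Subgroup.centralizer
        ((omegaOne p (centerThompsonOf p (T : Subgroup G)) : Subgroup G) : Set G) :=
      (Subgroup.mem_inf.mp hb).2
    rw [Subgroup.mem_centralizer_iff]
    intro u hu
    exact Subgroup.mem_centralizer_iff.mp hb' u (hUΩ hu)
  have hEU : ⁅⁅omegaOneCenter p (pCoreOf p E), E⁆, E⁆ ≤ ⁅omegaOneCenter p (pCoreOf p E), E⁆ := by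
    rw [Subgroup.commutator_le]
    intro u hu e he
    have h1 : e * u⁻¹ * e⁻¹ ∈ ⁅omegaOneCenter p (pCoreOf p E), E⁆ :=
      commutator_conj_mem (hEW he) (Subgroup.le_normalizer he) _ (Subgroup.inv_mem _ hu)
    have h2 : ⁅u, e⁆ = u * (e * u⁻¹ * e⁻¹) := by rw [commutatorElement_def]; group
    rw [h2]; exact Subgroup.mul_mem _ hu h1
  have h3 : ⁅⁅E, baumannSubgroupOf p (T : Subgroup G)⁆, ⁅omegaOneCenter p (pCoreOf p E), E⁆⁆ = ⊥ := by
    apply Subgroup.commutator_commutator_eq_bot_of_rotate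
    · rw [hBU]; exact Subgroup.commutator_bot_left E
    · rw [eq_bot_iff]
      calc ⁅⁅⁅omegaOneCenter p (pCoreOf p E), E⁆, E⁆, baumannSubgroupOf p (T : Subgroup G)⁆
          ≤ ⁅⁅omegaOneCenter p (pCoreOf p E), E⁆, baumannSubgroupOf p (T : Subgroup G)⁆ :=
            Subgroup.commutator_mono hEU le_rfl
        _ = ⁅baumannSubgroupOf p (T : Subgroup G), ⁅omegaOneCenter p (pCoreOf p E), E⁆⁆ :=
            Subgroup.commutator_comm _ _
        _ = ⊥ := hBU
  rw [hEB] at h3
  have hEcU : E ≤ Subgroup.centralizer ((⁅omegaOneCenter p (pCoreOf p E), E⁆ : Subgroup G) : Set G) :=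
    Subgroup.commutator_eq_bot_iff_le_centralizer.mp h3
  have hEcW : ∀ x ∈ E, ∀ w ∈ omegaOneCenter p (pCoreOf p E), x * w = w * x := by
    refine centralize_of_residual hres (hQp.to_le hWQ)
      (fun x hx w hw => (Subgroup.mem_normalizer_iff.mp (hEW hx) w).mp hw) ?_
    intro x hx w hw
    have h2 : ⁅w, x⁆ ∈ ⁅omegaOneCenter p (pCoreOf p E), E⁆ :=
      Subgroup.commutator_mem_commutator hw hx
    have h4 : x * w * x⁻¹ * w⁻¹ = ⁅w, x⁆⁻¹ := by rw [commutatorElement_def]; group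
    have h5 : x * w * x⁻¹ * w⁻¹ ∈ ⁅omegaOneCenter p (pCoreOf p E), E⁆ := by
      rw [h4]; exact Subgroup.inv_mem _ h2
    exact (Subgroup.mem_centralizer_iff.mp (hEcU hx) _ h5).symm
  apply hXnc
  intro x hx
  rw [Subgroup.mem_centralizer_iff]
  intro e he
  exact hEcW e he x (hkey.1 hx)

end Cfsg.Agent.Lib.Helper85.BB
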